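import Mathlib
import Cfsg.Agent.H395.HT.Cells3
import Cfsg.Agent.H395.HT.RowsE7

/-!
# S4933, part (O): the cell `E7`, `e = 4`, `p = 5` (second moment)
-/

set_option autoImplicit false
set_option maxRecDepth 100000

namespace Cfsg.Agent.H395.HT.E7

open Cfsg Cfsg.Lie Cfsg.Agent.ChevalleyStructure Cfsg.Agent.ChevalleyStructure.CoxeterGeomTypes
open Cfsg.Agent.BpExc.FamInst Cfsg.Agent.BpExc.RowsUntw Cfsg.Agent.H234.HT Cfsg.Agent.H395.HT

theorem chk4_5 : chkAll3 5 (Ph 4) T4 [(7, 1, (0, 1, 0, 0)), (18, 1, (0, 1, 0, 0))] = true := by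
  decide +kernel

/-- `E7`, `e = 4`, `p = 5` -/
theorem hasElt3_4_5 (F : Type) [Field F] [Fintype F] (hF : ¬ 5 ∣ Fintype.card F)
    (he : orderOf ((Fintype.card F : ℕ) : ZMod 5) = 4) : HasElt3 5 (chevE7.group F) (Fintype.card F) := by
  have : Fact (Nat.Prime 5) := ⟨by norm_num⟩
  exact hasElt3_cell e7T F hF inv_E7 (by norm_num) (by norm_num) he (by simp) eig4 tab4 chk4_5

end Cfsg.Agent.H395.HT.E7
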